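import Cfsg.Agent.H22.HT.Vac
import Cfsg.Agent.H367.HT.G2S
import Cfsg.Agent.H120.HT.YG2
import Cfsg.Agent.H778.HT.OutExc
import Cfsg.Agent.H638.G2Iso
import Cfsg.Agent.H316.HT.Defs

/-!
# S4933: `RowOut 3 G₂(q)`, `9 ∣ q + 1` (helper22)

The case is vacuous: `P / P ⊓ N` is cyclic (`Out` is the group of field automorphisms), no element of `P` outside `N`
centralises the abelian subgroup of index 3 of `P ⊓ N` (the element `y` of helper120), so `vac_cd` applies.
-/

set_option autoImplicit false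
set_option linter.unusedSectionVars false

open Cfsg Subgroup

namespace Cfsg.Agent.H22.HT

open Cfsg.Agent.H316.HT

theorem cyc_of {P O : Type*} [Group P] [Group O] (ψ : P →* O) (K : Subgroup P) [K.Normal] (hK : K = ψ.ker)
    (hc : IsCyclic ψ.range) : IsCyclic (P ⧸ K) := by
  subst hK
  exact isCyclic_of_injective (QuotientGroup.quotientKerEquivRange ψ).toMonoidHom
    (QuotientGroup.quotientKerEquivRange ψ).injective

section act

variable {A : Type*} [Group A] {N : Subgroup A} [N.Normal] {S : Type*} [Group S] (e : N ≃* S)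

/-- the action on `S` -/
def act : A →* MulAut S := (MulAut.congr e).toMonoidHom.comp MulAut.conjNormal

theorem act_apply (x : A) (s : S) : act e x s = e (MulAut.conjNormal x (e.symm s)) := rfl

theorem act_coe (x : A) (n : N) : ((e.symm (act e x (e n)) : N) : A) = x * n * x⁻¹ := by
  rw [act_apply, e.symm_apply_apply, e.symm_apply_apply, MulAut.conjNormal_apply]

theorem inner_iff (hC : centralizer (N : Set A) = ⊥) (x : A) : (∃ g, act e x = MulAut.conj g) ↔ x ∈ N := by
  constructor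
  · rintro ⟨g, hg⟩
    have h1 : ((e.symm g : N) : A)⁻¹ * x ∈ centralizer (N : Set A) := by
      rw [mem_centralizer_iff]
      intro n hn
      have h2 := act_coe e x ⟨n, hn⟩
      rw [hg, MulAut.conj_apply, map_mul, map_mul, map_inv, e.symm_apply_apply] at h2
      have h3 : ((e.symm g : N) : A) * n * ((e.symm g : N) : A)⁻¹ = x * n * x⁻¹ := h2
      have h4 : x * n = ((e.symm g : N) : A) * n * ((e.symm g : N) : A)⁻¹ * x := by rw [h3]; group
      calc n * (((e.symm g : N) : A)⁻¹ * x)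
          = ((e.symm g : N) : A)⁻¹ * (((e.symm g : N) : A) * n * ((e.symm g : N) : A)⁻¹ * x) := by group
        _ = ((e.symm g : N) : A)⁻¹ * x * n := by rw [← h4]; group
    rw [hC, mem_bot] at h1
    have h2 : x = (e.symm g : N) := by
      rw [inv_mul_eq_one] at h1
      exact h1.symm
    rw [h2]
    exact (e.symm g).2
  · intro hx
    refine ⟨e ⟨x, hx⟩, MulEquiv.ext fun s => ?_⟩
    rw [act_apply, MulAut.conj_apply, ← map_inv, ← e.apply_symm_apply s, ← map_mul, ← map_mul, e.apply_symm_apply]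
    congr 1

end act

/-- the intersection of a Sylow subgroup with a normal subgroup -/
theorem exists_inf {A : Type*} [Group A] [Finite A] (N : Subgroup A) [N.Normal] {p : ℕ} [Fact p.Prime] (P : Sylow p A) :
    ∃ Q : Sylow p N, (Q : Subgroup N) = (P : Subgroup A).subgroupOf N := by
  have h1 : IsPGroup p ((P : Subgroup A).subgroupOf N) := P.isPGroup'.comap_subtype
  have h2 : ¬ p ∣ ((P : Subgroup A).subgroupOf N).index := by
    have h3 : ((P : Subgroup A).subgroupOf N).index = (P : Subgroup A).relIndex N := rfl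
    rw [h3]
    intro hd
    apply P.not_dvd_index
    refine hd.trans ?_
    have a1 := relIndex_mul_relIndex ((P : Subgroup A) ⊓ N) (P : Subgroup A) ((P : Subgroup A) ⊔ N) inf_le_left le_sup_left
    have a2 := relIndex_mul_relIndex ((P : Subgroup A) ⊓ N) N ((P : Subgroup A) ⊔ N) inf_le_right le_sup_right
    rw [relIndex_sup_right, inf_relIndex_right] at a2
    rw [inf_relIndex_left] at a1
    rw [← a1, mul_comm] at a2
    have a3 : N.relIndex (P : Subgroup A) ≠ 0 := by
      have : Finite ((P : Subgroup A) ⧸ N.subgroupOf (P : Subgroup A)) := inferInstance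
      exact (N.subgroupOf (P : Subgroup A)).index_ne_zero_of_finite
    have a4 := Nat.eq_of_mul_eq_mul_left (Nat.pos_of_ne_zero a3) a2
    rw [a4]
    exact Dvd.intro _ (relIndex_mul_index le_sup_left)
  exact ⟨h1.toSylow h2, rfl⟩

/-- the abelian subgroup is not centralised -/
theorem not_central {F : Type} [Field F] [Fintype F] (h : 9 ∣ Fintype.card F + 1)
    [IsSimpleGroup ↥(Lie.chevG2.group F)] (hna : ∃ a b : ↥(Lie.chevG2.group F), a * b ≠ b * a)
    (hout : Nat.card (Out ↥(Lie.chevG2.group F)) ∣ 1 * Nat.card (RingAut F))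
    {A : Type} [Group A] [Finite A] {N : Subgroup A} [N.Normal] (e : N ≃* ↥(Lie.chevG2.group F))
    (hC : centralizer (N : Set A) = ⊥) (Q : Sylow 3 N) (A₀ : Subgroup N)
    (hA : ∀ x ∈ (Q : Subgroup N), x ∉ A₀ → x ^ 3 = 1) (x : A) {k : ℕ} (hx : x ^ 3 ^ k = 1) (hxN : x ∉ N) :
    ∃ a ∈ A₀, x * (a : A) ≠ a * x := by
  classical
  by_contra hcon
  push Not at hcon
  have hex : ∃ n, x ^ 3 ^ n ∈ N := ⟨k, by rw [hx]; exact one_mem _⟩
  obtain ⟨n, hn, hmin⟩ : ∃ n, x ^ 3 ^ n ∈ N ∧ ∀ m < n, x ^ 3 ^ m ∉ N := ⟨Nat.find hex, Nat.find_spec hex, fun m hm => Nat.find_min hex hm⟩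
  have hn0 : n ≠ 0 := by
    rintro rfl
    rw [pow_zero, pow_one] at hn
    exact hxN hn
  obtain ⟨m, rfl⟩ := Nat.exists_eq_succ_of_ne_zero hn0
  obtain ⟨y, hy⟩ : ∃ y, y = x ^ 3 ^ m := ⟨_, rfl⟩
  have hyN : y ∉ N := hy ▸ hmin m (Nat.lt_succ_self m)
  have hy3 : y ^ 3 ∈ N := by rw [hy, ← pow_mul, ← pow_succ]; exact hn
  have hyc : ∀ a ∈ A₀, y * (a : A) = a * y := by
    intro a ha
    have h1 : Commute x (a : A) := hcon a ha
    rw [hy]
    exact (h1.pow_left _).eq
  have : Fact (Nat.Prime 3) := ⟨Nat.prime_three⟩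
  obtain ⟨s, hs1, hs3, hs⟩ := Cfsg.Agent.H778.HT.untw_aux (D := Lie.chevG2) (l := 2) (M := CoxeterMatrix.G₂)
    Cfsg.Agent.H120.HT.YG2.isType
    hna (m := 1) hout (p := 3) (by norm_num) (act e y)
    (by
      obtain ⟨g, hg⟩ := (inner_iff e hC (y ^ 3)).2 hy3
      exact ⟨g, by rw [← map_pow, hg]⟩)
    (fun h => hyN ((inner_iff e hC y).1 h))
  obtain ⟨z, ⟨j, hj⟩, hz3, hz⟩ := Cfsg.Agent.H120.HT.YG2.exists_y h
  have hpz : IsPGroup 3 (zpowers (e.symm z)) := by
    rw [IsPGroup.iff_card]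
    have h1 : orderOf (e.symm z) ∣ 3 ^ j := orderOf_dvd_of_pow_eq_one (by rw [← map_pow, hj, map_one])
    obtain ⟨i, -, hi⟩ := (Nat.dvd_prime_pow Fact.out).1 h1
    exact ⟨i, by rw [Nat.card_zpowers, hi]⟩
  obtain ⟨R, hR⟩ := hpz.exists_le_sylow
  obtain ⟨b, hb⟩ := MulAction.exists_smul_eq N R Q
  have hw : b * e.symm z * b⁻¹ ∈ (Q : Subgroup N) := by
    rw [← hb]
    have h4 : e.symm z ∈ (R : Subgroup N) := hR (mem_zpowers _)
    exact Subgroup.smul_mem_pointwise_smul (e.symm z) (MulAut.conj b) _ h4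
  obtain ⟨w, hwd⟩ : ∃ w, w = b * e.symm z * b⁻¹ := ⟨_, rfl⟩
  rw [← hwd] at hw
  have hwA : w ∈ A₀ := by
    by_contra hwA
    have h1 := hA w hw hwA
    rw [hwd, conj_pow, conj_eq_one_iff, ← map_pow, map_eq_one_iff _ e.symm.injective] at h1
    exact hz3 h1
  have h1 : act e y (e w) = e w := by
    rw [act_apply, e.symm_apply_apply]
    congr 1
    ext
    rw [MulAut.conjNormal_apply, hyc w hwA]
    group
  have h2 := hs (e w)
  rw [h1] at h2
  have h3 : (((e w : ↥(Lie.chevG2.group F)) : GL Lie.chevG2.Idx F) : Matrix Lie.chevG2.Idx Lie.chevG2.Idx F).charpoly =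
      (((z : ↥(Lie.chevG2.group F)) : GL Lie.chevG2.Idx F) : Matrix Lie.chevG2.Idx Lie.chevG2.Idx F).charpoly := by
    have h4 := Cfsg.Agent.H778.HT.CP.conj (e b) z
    rw [MulAut.conj_apply] at h4
    have h5 : e w = e b * z * (e b)⁻¹ := by
      rw [hwd, map_mul, map_mul, e.apply_symm_apply, map_inv]
    rw [h5, h4]
    exact Polynomial.map_id
  rw [h3] at h2
  exact hz s hs3 hs1 h2.symm

theorem out_cyclic {F : Type} [Field F] [Fintype F] [IsSimpleGroup ↥(Lie.chevG2.group F)]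
    (hna : ∃ a b : ↥(Lie.chevG2.group F), a * b ≠ b * a)
    (hout : Nat.card (Out ↥(Lie.chevG2.group F)) ∣ 1 * Nat.card (RingAut F)) :
    IsCyclic (Out ↥(Lie.chevG2.group F)) := by
  have hp := Cfsg.Agent.H120.HT.YG2.isType
  have hD := hp.inList
  have hfin : Finite (RingAut F) := Finite.of_injective (fun σ : RingAut F => (σ : F → F)) DFunLike.coe_injective
  have hinj : ∀ (γ : RingAut F) (g : ↥(Lie.chevG2.group F)),
      Cfsg.Agent.H79.FieldAuts.fieldHom hD F γ = MulAut.conj g → γ = 1 := by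
    intro γ g h
    rw [← Cfsg.Agent.H295.FourOutChev.fld_eq hp] at h
    exact Cfsg.Agent.H778.HT.fld_inner hp hna γ g h
  have h1 := Cfsg.Agent.H778.HT.index_dvd (Φ := Cfsg.Agent.H79.FieldAuts.fieldHom hD F) hout hinj
  have h2 := Nat.dvd_one.1 h1
  rw [index_eq_one, MonoidHom.range_eq_top] at h2
  have hc : IsCyclic (RingAut F) := by
    obtain ⟨p, hp⟩ := CharP.exists F
    have : Fact p.Prime := ⟨CharP.char_is_prime F p⟩
    let _ := ZMod.algebra F p
    have h1 : IsCyclic (F ≃ₐ[ZMod p] F) := inferInstance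
    refine isCyclic_of_surjective
      ({ toFun := fun f => f.toRingEquiv, map_one' := rfl, map_mul' := fun _ _ => rfl } :
        (F ≃ₐ[ZMod p] F) →* RingAut F) ?_
    intro s
    refine ⟨AlgEquiv.ofRingEquiv (f := s) (fun x => ?_), ?_⟩
    · have h2 : (s : F →+* F).comp (algebraMap (ZMod p) F) = algebraMap (ZMod p) F :=
        Subsingleton.elim _ _
      exact RingHom.congr_fun h2 x
    · ext x
      rfl
  exact isCyclic_of_surjective _ h2

/-- **`RowOut 3` of `G₂(q)`, `9 ∣ q + 1`.** -/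
theorem rowOut_g2 {F : Type} [Field F] [Fintype F] (h : 9 ∣ Fintype.card F + 1) : RowOut 3 ↥(Lie.chevG2.group F) := by
  classical
  intro A _ _ N _ ⟨e⟩ hC M hM P a ha hcd hPN
  exfalso
  have h8 : 8 ≤ Fintype.card F := by
    have := Nat.le_of_dvd (by omega) h
    omega
  obtain ⟨r, hr⟩ := CharP.exists F
  have hrp : Fact r.Prime := ⟨CharP.char_is_prime F r⟩
  obtain ⟨f, -, hF⟩ := FiniteField.card F r
  have hr3 : r ≠ 3 := by
    rintro rfl
    have h1 : 3 ∣ Fintype.card F := by rw [hF]; exact dvd_pow_self 3 f.pos.ne'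
    omega
  have h3 : (3 : F) ≠ 0 := by
    intro h0
    have h1 : r ∣ 3 := (CharP.cast_eq_zero_iff F r 3).1 (by exact_mod_cast h0)
    rcases (Nat.dvd_prime Nat.prime_three).1 h1 with h2 | h2
    · exact hrp.out.one_lt.ne' h2
    · exact hr3 h2
  obtain ⟨b, hb0, hb1⟩ : ∃ b : F, b ≠ 0 ∧ b ≠ 1 := by
    by_contra hcon
    push Not at hcon
    have h1 : Fintype.card F ≤ ({0, 1} : Finset F).card := by
      rw [← Finset.card_univ]
      refine Finset.card_le_card fun x _ => ?_
      by_cases hx : x = 0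
      · simp [hx]
      · simp [hcon x hx]
    have h2 : ({0, 1} : Finset F).card ≤ 2 := Finset.card_le_two
    omega
  obtain ⟨hs, hna'⟩ := Cfsg.Agent.S1055.result ⟨b, hb0, hb1⟩
  have hna : ∃ a b : ↥(Lie.chevG2.group F), a * b ≠ b * a := by
    by_contra hcon
    push Not at hcon
    exact hna' ⟨⟨hcon⟩⟩
  have hRA : Nat.card (RingAut F) = f := Cfsg.Agent.Lib.FieldAutCard.card_ringAut f.pos hF
  have hout : Nat.card (Out ↥(Lie.chevG2.group F)) ∣ 1 * Nat.card (RingAut F) := by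
    rw [Cfsg.Agent.S2121.result r f hF (by rw [← hF]; omega), if_neg hr3, one_mul, hRA]
  -- `Out` is cyclic
  have hcycO : IsCyclic (Out ↥(Lie.chevG2.group F)) := out_cyclic hna hout
  have : Fact (Nat.Prime 3) := ⟨Nat.prime_three⟩
  obtain ⟨e2⟩ := Cfsg.Agent.H638.G2Iso.equiv (F := F)
  obtain ⟨Q, hQ⟩ := exists_inf N P
  have h9 : 9 ∣ Nat.card F ^ 2 - 1 := by
    rw [Nat.card_eq_fintype_card]
    obtain ⟨m, hm⟩ : ∃ m, Fintype.card F = m + 1 := ⟨Fintype.card F - 1, by omega⟩
    rw [hm] at h ⊢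
    have h1 : (m + 1) ^ 2 - 1 = (m + 1 + 1) * m := by
      have h2 : (m + 1) ^ 2 = (m + 1 + 1) * m + 1 := by ring
      omega
    rw [h1]
    exact h.mul_right m
  obtain ⟨A₀, hA1, hA2, hA3, hA4, -, hA6⟩ := Cfsg.Agent.H367.HT.GTwo.facts h3 h9 (e.trans e2.symm) Q
  -- the subgroups of `P`
  set P₀ : Subgroup P := N.subgroupOf (P : Subgroup A) with hP₀
  set B : Subgroup P := (A₀.map N.subtype).subgroupOf (P : Subgroup A) with hB
  have hle : A₀.map N.subtype ≤ P := by
    rintro _ ⟨x, hx, rfl⟩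
    have h1 : x ∈ (Q : Subgroup N) := hA1 hx
    rw [hQ] at h1
    exact h1
  have hcardB : Nat.card B = Nat.card A₀ := by
    rw [Nat.card_congr (A₀.equivMapOfInjective N.subtype N.subtype_injective).toEquiv]
    exact Nat.card_congr (subgroupOfEquivOfLe hle).toEquiv
  have hcardP : Nat.card P₀ = Nat.card (Q : Subgroup N) := by
    rw [hQ]
    have h1 : Nat.card ↥(N.subgroupOf (P : Subgroup A)) = Nat.card ↥((P : Subgroup A) ⊓ N) := by
      rw [← inf_subgroupOf_left]
      exact Nat.card_congr (subgroupOfEquivOfLe inf_le_left).toEquiv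
    have h2 : Nat.card ↥((P : Subgroup A).subgroupOf N) = Nat.card ↥((P : Subgroup A) ⊓ N) := by
      rw [← inf_subgroupOf_right]
      exact Nat.card_congr (subgroupOfEquivOfLe inf_le_right).toEquiv
    rw [h1, h2]
  have hP₀n : P₀.Normal := inferInstance
  refine vac_cd P.isPGroup' P₀ B ?_ ?_ ?_ ?_ ?_ ?_ ?_ ?_ a hcd
  · refine cyc_of (((QuotientGroup.mk' (Inn ↥(Lie.chevG2.group F))).comp (act e)).comp (P : Subgroup A).subtype) P₀ ?_
      inferInstance
    ext x
    rw [MonoidHom.mem_ker, hP₀, mem_subgroupOf, ← inner_iff e hC]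
    have h1 : (((QuotientGroup.mk' (Inn ↥(Lie.chevG2.group F))).comp (act e)).comp (P : Subgroup A).subtype) x = 1 ↔
        act e x ∈ Inn ↥(Lie.chevG2.group F) := QuotientGroup.eq_one_iff _
    rw [h1]
    constructor
    · rintro ⟨g, hg⟩
      exact ⟨g, hg.symm⟩
    · rintro ⟨g, hg⟩
      exact ⟨g, hg.symm⟩
  · intro h1
    apply hPN
    rwa [hP₀, subgroupOf_eq_top] at h1
  · intro x hx
    obtain ⟨y, -, hy⟩ := hx
    have h1 : (x : A) = y := hy.symm
    rw [hP₀, mem_subgroupOf, h1]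
    exact y.2
  · rintro x ⟨x', hx', hxx⟩ y ⟨y', hy', hyy⟩
    have h1 := hA2 x' hx' y' hy'
    have h2 : (x' : A) * y' = y' * x' := by exact_mod_cast congrArg (Subtype.val) h1
    ext
    have e1 : (x : A) = x' := hxx.symm
    have e2 : (y : A) = y' := hyy.symm
    rw [coe_mul, coe_mul, e1, e2, h2]
  · rw [hcardP, hcardB, hA3]
  · rw [hcardB]
    exact hA4
  · intro x hx hxB
    obtain ⟨n, hn⟩ : ∃ n : N, (n : A) = x := ⟨⟨x, hx⟩, rfl⟩
    have hnQ : n ∈ (Q : Subgroup N) := by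
      rw [hQ, mem_subgroupOf, hn]
      exact x.2
    have hnA : n ∉ A₀ := by
      intro h1
      apply hxB
      rw [hB, mem_subgroupOf, ← hn]
      exact mem_map_of_mem _ h1
    refine le_trans ?_ (hA6 n hnQ hnA).2
    have hm : ∀ t : ↥(B ⊓ centralizer ({x} : Set P)), ∃ s : {a : A₀ // n * a = a * n}, ((s.1 : N) : A) = ((t : P) : A) := by
      rintro ⟨t, ht1, ht2⟩
      obtain ⟨u, hu, hut⟩ := ht1
      have hut' : (u : A) = (t : A) := hut
      refine ⟨⟨⟨u, hu⟩, ?_⟩, hut'⟩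
      have h1 := (mem_centralizer_iff.1 ht2) x rfl
      have h2 : (x : A) * t = t * x := by exact_mod_cast congrArg Subtype.val h1
      ext
      rw [coe_mul, coe_mul, hn, hut', h2]
    choose g hg using hm
    refine Nat.card_le_card_of_injective g fun t t' h1 => ?_
    have h2 := hg t
    rw [h1, hg t'] at h2
    exact (Subtype.ext (Subtype.ext h2)).symm
  · intro x hx
    obtain ⟨k, hk⟩ := P.isPGroup' x
    have hxN : (x : A) ∉ N := fun h1 => hx (by rw [hP₀, mem_subgroupOf]; exact h1)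
    obtain ⟨u, hu, hux⟩ := not_central h hna hout e hC Q A₀ (fun y hy hyA => (hA6 y hy hyA).1) (x : A) (k := k)
      (by exact_mod_cast congrArg Subtype.val hk) hxN
    exact ⟨⟨u, hle (mem_map_of_mem _ hu)⟩, mem_map_of_mem N.subtype hu, fun h1 => hux (congrArg Subtype.val h1)⟩

end Cfsg.Agent.H22.HT
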