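import Cfsg.Agent.S4459
import Cfsg.Agent.Characters.Core
import Cfsg.Agent.H777.PGrp
import Cfsg.Agent.H316.HT.Defs

/-!
# S4933, `p = 3`: a vacuous case (helper22)

`vac` : the form for a Sylow `3`-subgroup of `G₂(q).3^j`, `9 ∣ q + 1`.

`not_cd` : `P` a finite `3`-group, `A` an abelian normal subgroup with `C_P(A) = A`, of index `3` in the kernel of a nontrivial
homomorphism `f` of `P` to a cyclic group, `A ∩ Z(ker f)` of index at least `9` in `A`, and `ker f` does not centralise a factor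
`A / K` of order `9`: then `P` has characters of degree `3` and of degree at least `9`.
-/

set_option autoImplicit false

namespace Cfsg.Agent.H22.HT

open Cfsg Subgroup Cfsg.Agent.H316.HT

universe u v

/-- normal subgroups of order three of a `3`-group are central -/
theorem central_of_card {P : Type*} [Group P] [Finite P] (hP : IsPGroup 3 P) {N : Subgroup P} (hn : N.Normal)
    (hN : Nat.card N = 3) : ∀ b ∈ N, ∀ g : P, g * b = b * g := by
  have : Fact (Nat.Prime 3) := ⟨Nat.prime_three⟩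
  obtain ⟨b₀, hb₀, hb1, hb2⟩ := H777.PGrp.inf_center_ne_bot hP (N := N) (by
    rintro rfl
    rw [Subgroup.card_bot] at hN
    omega) hn
  have h1 : orderOf b₀ = 3 := by
    have h2 : orderOf (⟨b₀, hb₀⟩ : N) ∣ Nat.card N := orderOf_dvd_natCard _
    rw [hN, Subgroup.orderOf_mk] at h2
    rcases (Nat.dvd_prime Nat.prime_three).1 h2 with h | h
    · exact absurd (orderOf_eq_one_iff.1 h) hb1
    · exact h
  have h3 : zpowers b₀ = N := Subgroup.eq_of_le_of_card_ge (zpowers_le.2 hb₀) (by
    rw [Nat.card_zpowers, h1, hN])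
  intro b hb g
  rw [← h3] at hb
  obtain ⟨k, rfl⟩ := hb
  exact ((show Commute g b₀ from hb2 g).zpow_right k).eq

/-- the centraliser of an abelian normal subgroup of order nine has index at most three -/
theorem index_le {P : Type*} [Group P] [Finite P] (hP : IsPGroup 3 P) (V : Subgroup P) [hV : V.Normal]
    (h9 : Nat.card V = 9) : (centralizer (V : Set P)).index ≤ 3 := by
  have h9' := h9
  have : Fact (Nat.Prime 3) := ⟨Nat.prime_three⟩
  by_cases hc : ∀ v ∈ V, ∀ g : P, g * v = v * g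
  · have h1 : centralizer (V : Set P) = ⊤ := by
      rw [eq_top_iff]
      intro g _
      rw [mem_centralizer_iff]
      intro v hv
      exact (hc v hv g).symm
    rw [h1, index_top]
    norm_num
  · push Not at hc
    obtain ⟨v, hv, g₀, hg₀⟩ := hc
    obtain ⟨b, hb, hb1, hb2⟩ := H777.PGrp.inf_center_ne_bot hP (N := V) (by
      rintro rfl
      rw [Subgroup.card_bot] at h9
      omega) hV
    have hZc : ∀ x ∈ zpowers b, ∀ g : P, g * x = x * g := by
      rintro _ ⟨k, rfl⟩ g
      exact ((show Commute g b from hb2 g).zpow_right k).eq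
    have hob : orderOf b = 3 := by
      have h2 : orderOf (⟨b, hb⟩ : V) ∣ Nat.card V := orderOf_dvd_natCard _
      rw [h9, Subgroup.orderOf_mk, show (9 : ℕ) = 3 ^ 2 by norm_num, Nat.dvd_prime_pow Nat.prime_three] at h2
      obtain ⟨k, hk, hk2⟩ := h2
      interval_cases k
      · exact absurd (orderOf_eq_one_iff.1 (by rw [hk2]; norm_num)) hb1
      · rw [hk2]; norm_num
      · exfalso
        have h3 : zpowers b = V := Subgroup.eq_of_le_of_card_ge (zpowers_le.2 hb) (by
          rw [Nat.card_zpowers, hk2, h9]; norm_num)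
        exact hg₀ (hZc v (h3 ▸ hv) g₀)
    have hZn : (zpowers b).Normal := ⟨fun x hx g => by
      rw [hZc x hx g, mul_inv_cancel_right]; exact hx⟩
    have hZV : zpowers b ≤ V := zpowers_le.2 hb
    have hvZ : v ∉ zpowers b := fun h => hg₀ (hZc v h g₀)
    have hcardZ : Nat.card (zpowers b) = 3 := by rw [Nat.card_zpowers, hob]
    -- the quotient
    have hVn : (V.map (QuotientGroup.mk' (zpowers b))).Normal :=
      hV.map _ (QuotientGroup.mk'_surjective _)
    have hcard : Nat.card (V.map (QuotientGroup.mk' (zpowers b))) = 3 := by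
      have h4 := relIndex_mul_relIndex ⊥ (zpowers b) V bot_le hZV
      rw [relIndex_bot_left, relIndex_bot_left, hcardZ, h9] at h4
      have h5 : Nat.card (V.map (QuotientGroup.mk' (zpowers b))) = (zpowers b).relIndex V := by
        have h6 := relIndex_ker V (QuotientGroup.mk' (zpowers b))
        rw [QuotientGroup.ker_mk'] at h6
        exact h6.symm
      omega
    have hQ : IsPGroup 3 (P ⧸ zpowers b) := hP.to_quotient _
    have hcen := central_of_card hQ hVn hcard
    have hcom : ∀ x ∈ V, ∀ g : P, g * x * g⁻¹ * x⁻¹ ∈ zpowers b := by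
      intro x hx g
      rw [← QuotientGroup.eq_one_iff]
      have h6 := hcen (x : P ⧸ zpowers b) (mem_map_of_mem (QuotientGroup.mk' (zpowers b)) hx) (g : P ⧸ zpowers b)
      rw [QuotientGroup.mk_mul, QuotientGroup.mk_mul, QuotientGroup.mk_mul, h6, QuotientGroup.mk_inv,
        QuotientGroup.mk_inv, mul_inv_cancel_right, mul_inv_cancel]
    let θ : P →* zpowers b :=
      { toFun := fun g => ⟨g * v * g⁻¹ * v⁻¹, hcom v hv g⟩
        map_one' := Subtype.ext (by simp)
        map_mul' := fun g h => Subtype.ext (by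
          show g * h * v * (g * h)⁻¹ * v⁻¹ = g * v * g⁻¹ * v⁻¹ * (h * v * h⁻¹ * v⁻¹)
          have h7 := hZc _ (hcom v hv h) (g * v * g⁻¹ * v⁻¹)
          rw [h7]
          have h8 := hZc _ (hcom v hv h) g
          calc g * h * v * (g * h)⁻¹ * v⁻¹ = g * (h * v * h⁻¹ * v⁻¹) * (v * g⁻¹ * v⁻¹) := by group
            _ = (h * v * h⁻¹ * v⁻¹) * g * (v * g⁻¹ * v⁻¹) := by rw [h8]
            _ = _ := by group) }
    have hk : θ.ker ≤ centralizer (V : Set P) := by
      intro g hg
      have h9 : g * v = v * g := by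
        have h10 : g * v * g⁻¹ * v⁻¹ = 1 := congrArg Subtype.val ((MonoidHom.mem_ker).1 hg)
        rw [mul_inv_eq_one, mul_inv_eq_iff_eq_mul] at h10
        exact h10
      have hW : V ⊓ centralizer ({g} : Set P) = V := by
        refine Subgroup.eq_of_le_of_card_ge inf_le_left ?_
        have h11 : zpowers b ≤ V ⊓ centralizer ({g} : Set P) :=
          le_inf hZV fun x hx => by
            rw [mem_centralizer_singleton_iff]
            exact (hZc x hx g).symm
        have h12 : Nat.card ↥(V ⊓ centralizer ({g} : Set P)) ∣ Nat.card V := card_dvd_of_le inf_le_left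
        have h13 : v ∈ V ⊓ centralizer ({g} : Set P) := mem_inf.2 ⟨hv, by
          rw [mem_centralizer_singleton_iff]
          exact h9.symm⟩
        have h14 : Nat.card (zpowers b) < Nat.card ↥(V ⊓ centralizer ({g} : Set P)) := by
          by_contra h15
          have h16 := Subgroup.eq_of_le_of_card_ge h11 (not_lt.1 h15)
          exact hvZ (h16 ▸ h13)
        rw [h9', show (9 : ℕ) = 3 ^ 2 by norm_num, Nat.dvd_prime_pow Nat.prime_three] at h12
        obtain ⟨k, hk1, hk2⟩ := h12
        rw [hcardZ, hk2] at h14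
        rw [h9', hk2]
        interval_cases k
        · norm_num at h14
        · norm_num at h14
        · norm_num
      rw [mem_centralizer_iff]
      intro x hx
      rw [← hW] at hx
      have h17 := (mem_inf.1 hx).2
      rw [mem_centralizer_singleton_iff] at h17
      exact h17
    have h20 : θ.ker.index ≤ 3 := by
      rw [index_ker]
      calc Nat.card θ.range ≤ Nat.card (zpowers b) := Nat.card_le_card_of_injective _ Subtype.val_injective
        _ = 3 := hcardZ
    exact le_trans (Nat.le_of_dvd (Nat.pos_of_ne_zero (index_ne_zero_of_finite)) (index_dvd_of_le hk)) h20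


/-- a character of degree three -/
theorem exists_deg_three {P : Type u} {C : Type v} [Group P] [Finite P] [Group C] [IsCyclic C] (hP : IsPGroup 3 P)
    (f : P →* C) (V : Subgroup P) [hV : V.Normal] (hVf : V ≤ f.ker) (h3 : V.relIndex f.ker = 3)
    (hab : ∀ x ∈ V, ∀ y ∈ V, x * y = y * x) (h9 : Nat.card V = 9) (hw : ∃ w ∈ f.ker, ∃ v ∈ V, w * v ≠ v * w) :
    ∃ χ : IrrCharacter P, charDegree (χ : P → ℂ) = 3 := by
  obtain ⟨w, hw, v, hv, hwv⟩ := hw
  have hle := index_le hP V h9
  set U := centralizer (V : Set P) with hU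
  have hVU : V ≤ U := fun x hx => by
    rw [hU, mem_centralizer_iff]
    exact fun y hy => hab y hy x hx
  have hwU : w ∉ U := by
    intro h
    rw [hU, mem_centralizer_iff] at h
    exact hwv (h v hv).symm
  have hUn : U.Normal := by rw [hU]; infer_instance
  -- `U ∩ ker f = V`
  have hUk : U ⊓ f.ker = V := by
    have h1 : V ≤ U ⊓ f.ker := le_inf hVU hVf
    have h2 := relIndex_mul_relIndex V (U ⊓ f.ker) f.ker h1 inf_le_right
    rw [h3] at h2
    have h4 : (U ⊓ f.ker).relIndex f.ker ≠ 1 := by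
      intro h5
      exact hwU (relIndex_eq_one.1 h5 hw).1
    have h6 : V.relIndex (U ⊓ f.ker) = 1 := by
      have h7 : (U ⊓ f.ker).relIndex f.ker ∣ 3 := ⟨V.relIndex (U ⊓ f.ker), by rw [mul_comm]; exact h2.symm⟩
      rcases (Nat.dvd_prime Nat.prime_three).1 h7 with h8 | h8
      · exact absurd h8 h4
      · rw [h8] at h2; omega
    exact le_antisymm (relIndex_eq_one.1 h6) h1
  -- `U` is abelian
  have hUab : ∀ a ∈ U, ∀ b ∈ U, a * b = b * a := by
    have hker : (f.comp U.subtype).ker ≤ center U := by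
      intro x hx
      have h1 : (x : P) ∈ V := by
        rw [← hUk]
        exact ⟨x.2, hx⟩
      rw [mem_center_iff]
      intro y
      apply Subtype.ext
      have h2 : ∀ v ∈ V, v * (y : P) = y * v := mem_centralizer_iff.1 y.2
      exact (h2 x h1).symm
    intro a ha b hb
    have h1 := commutative_of_cyclic_center_quotient (f.comp U.subtype) hker ⟨a, ha⟩ ⟨b, hb⟩
    exact congrArg Subtype.val h1
  have hne : U.index ≠ 1 := fun h => hwU (by rw [index_eq_one.1 h]; exact mem_top w)
  have hidx : U.index = 3 := by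
    have h1 := hP.index U
    obtain ⟨k, hk⟩ := h1
    rw [hk] at hle hne ⊢
    rcases k with _ | _ | k
    · exact absurd (pow_zero 3) hne
    · norm_num
    · exfalso
      have : 3 ^ 2 ≤ 3 ^ (k + 1 + 1) := Nat.pow_le_pow_right (by norm_num) (by omega)
      omega
  exact ((S4459.result ⟨w, v, hwv⟩ 3 Nat.prime_three).2 (Or.inl ⟨U, hUn, hUab, hidx⟩)).2

/-- **The vacuous case.** -/
theorem not_cd {P : Type u} {C : Type v} [Group P] [Finite P] [Group C] [IsCyclic C] (hP : IsPGroup 3 P) (f : P →* C)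
    (hf : ∃ y, f y ≠ 1) (A : Subgroup P) [hA : A.Normal] (hAf : A ≤ f.ker) (hAi : A.relIndex f.ker = 3)
    (hab : ∀ x ∈ A, ∀ y ∈ A, x * y = y * x) (hC : ∀ y : P, (∀ x ∈ A, y * x = x * y) → y ∈ A)
    (K : Subgroup P) [hK : K.Normal] (hKA : K ≤ A) (hK9 : K.relIndex A = 9)
    (hw : ∃ w ∈ f.ker, ∃ x ∈ A, w * x * w⁻¹ * x⁻¹ ∉ K)
    (hZ : ∃ w ∈ f.ker, 9 ≤ (centralizer ({w} : Set P)).relIndex A) (a : ℕ)
    (hcd : ∀ φ : IrrCharacter P, charDegree (φ : P → ℂ) = 1 ∨ charDegree (φ : P → ℂ) = 3 ^ a) : False := by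
  have : Fact (Nat.Prime 3) := ⟨Nat.prime_three⟩
  obtain ⟨w, hwk, x, hx, hwx⟩ := hw
  -- degree three
  have hd3 : ∃ χ : IrrCharacter P, charDegree (χ : P → ℂ) = 3 := by
    have hKf : K ≤ f.ker := hKA.trans hAf
    let g : P ⧸ K →* C := QuotientGroup.lift K f hKf
    have hgk : g.ker = f.ker.map (QuotientGroup.mk' K) := by
      ext y
      obtain ⟨y, rfl⟩ := QuotientGroup.mk'_surjective K y
      constructor
      · intro hy
        exact ⟨y, hy, rfl⟩
      · rintro ⟨y', hy', he⟩
        rw [← he]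
        exact hy'
    have hVn : (A.map (QuotientGroup.mk' K)).Normal := hA.map _ (QuotientGroup.mk'_surjective _)
    obtain ⟨χ, hχ⟩ := exists_deg_three (P := P ⧸ K) (hP.to_quotient K) g (A.map (QuotientGroup.mk' K))
      (by rw [hgk]; exact map_mono hAf) (by
        rw [hgk, relIndex_map_map, QuotientGroup.ker_mk', sup_eq_left.2 hKA, sup_eq_left.2 hKf]
        exact hAi) (by
        rintro _ ⟨x, hx, rfl⟩ _ ⟨y, hy, rfl⟩
        rw [← map_mul, hab x hx y hy, map_mul]) (by
        have h6 := relIndex_ker A (QuotientGroup.mk' K)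
        rw [QuotientGroup.ker_mk', hK9] at h6
        exact h6.symm) ⟨QuotientGroup.mk' K w, by rw [hgk]; exact mem_map_of_mem _ hwk, QuotientGroup.mk' K x,
        mem_map_of_mem _ hx, fun h => hwx (by
          rw [← QuotientGroup.eq_one_iff]
          have h1 : (w : P ⧸ K) * x = x * w := h
          rw [QuotientGroup.mk_mul, QuotientGroup.mk_mul, QuotientGroup.mk_mul, h1, QuotientGroup.mk_inv,
            QuotientGroup.mk_inv, mul_inv_cancel_right, mul_inv_cancel])⟩
    refine ⟨⟨(χ : P ⧸ K → ℂ) ∘ QuotientGroup.mk' K,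
      Cfsg.Agent.Characters.Core.isIrr_comp _ (QuotientGroup.mk'_surjective K) χ.2⟩, ?_⟩
    rw [← hχ]
    unfold charDegree
    simp
  have ha1 : a = 1 := by
    obtain ⟨χ, hχ⟩ := hd3
    rcases hcd χ with h | h
    · omega
    · rw [hχ] at h
      have h2 : (3 : ℕ) ^ 1 = 3 ^ a := by rw [pow_one]; exact h
      exact (Nat.pow_right_injective (le_refl 2 |>.trans (by norm_num : 2 ≤ 3)) h2).symm
  subst ha1
  have hind : 6 ≤ A.index := by
    have h1 := relIndex_mul_index hAf
    rw [hAi] at h1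
    have h2 : f.ker.index ≠ 1 := by
      intro h3
      obtain ⟨y, hy⟩ := hf
      have h4 : y ∈ f.ker := by rw [index_eq_one.1 h3]; exact mem_top y
      exact hy h4
    have h5 : f.ker.index ≠ 0 := index_ne_zero_of_finite
    omega
  obtain ⟨w', hw'k, hw'⟩ := hZ
  have hnab : ∃ a b : P, a * b ≠ b * a := ⟨w, x, fun h => hwx (by
    rw [h, mul_inv_cancel_right, mul_inv_cancel]; exact K.one_mem)⟩
  have hcd' : (∀ χ : IrrCharacter P, charDegree (χ : P → ℂ) = 1 ∨ charDegree (χ : P → ℂ) = 3) ∧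
      ∃ χ : IrrCharacter P, charDegree (χ : P → ℂ) = 3 := by
    refine ⟨fun χ => ?_, ?_⟩
    · have h1 := hcd χ
      rwa [pow_one] at h1
    · exact hd3
  rcases (S4459.result hnab 3 Nat.prime_three).1 hcd' with ⟨B, hB, hBab, hB3⟩ | hZ3
  · by_cases hAB : A ≤ B
    · have h1 : B ≤ A := fun y hy => hC y fun x hx => hBab y hy x (hAB hx)
      have h2 : B = A := le_antisymm h1 hAB
      rw [← h2, hB3] at hind
      omega
    · have htop : B ⊔ A = ⊤ := by
        have h1 := relIndex_mul_index (le_sup_left (a := B) (b := A))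
        rw [hB3] at h1
        rw [← index_eq_one]
        have h2 : (B ⊔ A).index ∣ 3 := ⟨B.relIndex (B ⊔ A), by rw [mul_comm]; exact h1.symm⟩
        rcases (Nat.dvd_prime Nat.prime_three).1 h2 with h | h
        · exact h
        · exfalso
          rw [h] at h1
          have h3 : B.relIndex (B ⊔ A) = 1 := by omega
          exact hAB (le_sup_right.trans (relIndex_eq_one.1 h3))
      have hcen : A ⊓ B ≤ centralizer ({w'} : Set P) := by
        intro y hy
        have h1 : B ⊔ A ≤ centralizer ({y} : Set P) := by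
          refine sup_le (fun b hb => ?_) fun a ha => ?_
          · rw [mem_centralizer_singleton_iff]
            exact hBab b hb y hy.2
          · rw [mem_centralizer_singleton_iff]
            exact hab a ha y hy.1
        rw [htop] at h1
        have h2 := h1 (mem_top w')
        rw [mem_centralizer_singleton_iff] at h2 ⊢
        exact h2.symm
      have h1 : (centralizer ({w'} : Set P)).relIndex A ∣ (A ⊓ B).relIndex A := relIndex_dvd_of_le_left A hcen
      rw [inf_comm, inf_relIndex_right] at h1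
      have h2 : B.relIndex A ∣ B.index := relIndex_dvd_index_of_normal B A
      rw [hB3] at h2
      have h3 := Nat.le_of_dvd (by norm_num) (h1.trans h2)
      omega
  · have hcA : center P ≤ A := fun y hy => hC y fun x _ => ((mem_center_iff.1 hy) x).symm
    have h1 := relIndex_mul_index hcA
    rw [hZ3] at h1
    have h2 : center P ≤ centralizer ({w'} : Set P) := fun y hy => by
      rw [mem_centralizer_singleton_iff]
      exact ((mem_center_iff.1 hy) w').symm
    have h3 := relIndex_dvd_of_le_left A h2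
    have h4 : A.index ∣ 3 ^ 3 := ⟨(center P).relIndex A, by rw [mul_comm]; exact h1.symm⟩
    obtain ⟨k, hk, hk2⟩ := (Nat.dvd_prime_pow Nat.prime_three).1 h4
    have h5 : 0 < (center P).relIndex A := Nat.pos_of_ne_zero (by
      intro h
      rw [h, zero_mul] at h1
      norm_num at h1)
    have h6 := Nat.le_of_dvd h5 h3
    have e3 : (3 : ℕ) ^ 3 = 27 := by norm_num
    have h7 : A.index = 9 ∨ A.index = 27 := by
      rw [hk2] at hind ⊢
      interval_cases k
      · norm_num at hind
      · norm_num at hind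
      · left; norm_num
      · right; norm_num
    rw [e3] at h1
    rcases h7 with h7 | h7 <;> rw [h7] at h1 <;> omega


section Comm

variable {P : Type u} [Group P] (A : Subgroup P) [hA : A.Normal] (hab : ∀ x ∈ A, ∀ y ∈ A, x * y = y * x) (w : P)

/-- `x ↦ [w, x]` on an abelian normal subgroup -/
def th : A →* P where
  toFun x := w * x * w⁻¹ * (x : P)⁻¹
  map_one' := by simp
  map_mul' x y := by
    have h1 : w * (y : P) * w⁻¹ ∈ A := hA.conj_mem _ y.2 w
    have h2 := hab _ (A.mul_mem h1 (A.inv_mem y.2)) _ (A.inv_mem x.2)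
    show w * ((x : P) * y) * w⁻¹ * ((x : P) * y)⁻¹ = w * x * w⁻¹ * (x : P)⁻¹ * (w * y * w⁻¹ * (y : P)⁻¹)
    calc w * ((x : P) * y) * w⁻¹ * ((x : P) * y)⁻¹ = w * x * w⁻¹ * ((w * y * w⁻¹ * (y : P)⁻¹) * (x : P)⁻¹) := by group
      _ = w * x * w⁻¹ * ((x : P)⁻¹ * (w * y * w⁻¹ * (y : P)⁻¹)) := by rw [h2]
      _ = _ := by group

theorem th_apply (x : A) : th A hab w x = w * x * w⁻¹ * (x : P)⁻¹ := rfl

/-- the image of a normal subgroup -/
theorem comm_eq (B P₀ : Subgroup P) [hB : B.Normal] (hBA : B ≤ A) (hAP : A ≤ P₀) (hw : w ∈ P₀)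
    (hgen : A ⊔ zpowers w = P₀) : ⁅P₀, B⁆ = (B.subgroupOf A).map (th A hab w) := by
  have hmem : ∀ x, x ∈ (B.subgroupOf A).map (th A hab w) ↔ ∃ b ∈ B, w * b * w⁻¹ * b⁻¹ = x := by
    intro x
    constructor
    · rintro ⟨b, hb, rfl⟩
      exact ⟨b, hb, rfl⟩
    · rintro ⟨b, hb, rfl⟩
      exact ⟨⟨b, hBA hb⟩, hb, rfl⟩
  have hIB : (B.subgroupOf A).map (th A hab w) ≤ B := by
    intro x hx
    obtain ⟨b, hb, rfl⟩ := (hmem x).1 hx
    exact B.mul_mem (hB.conj_mem b hb w) (B.inv_mem hb)
  apply le_antisymm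
  · rw [commutator_le]
    let N : Subgroup P :=
      { carrier := {p | ∀ b ∈ B, p * b * p⁻¹ * b⁻¹ ∈ (B.subgroupOf A).map (th A hab w)}
        one_mem' := fun b _ => by
          simp only [one_mul, inv_one, mul_one, mul_inv_cancel]
          exact one_mem _
        mul_mem' := by
          intro p q hp hq b hb
          have h1 := hq b hb
          have h2 := hp _ (hIB h1)
          have h3 := mul_mem (mul_mem h2 h1) (hp b hb)
          have e : p * q * b * (p * q)⁻¹ * b⁻¹ =
              p * (q * b * q⁻¹ * b⁻¹) * p⁻¹ * (q * b * q⁻¹ * b⁻¹)⁻¹ * (q * b * q⁻¹ * b⁻¹) * (p * b * p⁻¹ * b⁻¹) := by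
            group
          rw [Set.mem_setOf_eq] at *
          rw [e]
          exact h3
        inv_mem' := by
          intro p hp b hb
          have h1 := hp _ (hB.conj_mem b hb p⁻¹)
          have e : p⁻¹ * b * p⁻¹⁻¹ * b⁻¹ = (p * (p⁻¹ * b * p⁻¹⁻¹) * p⁻¹ * (p⁻¹ * b * p⁻¹⁻¹)⁻¹)⁻¹ := by group
          rw [e]
          exact inv_mem h1 }
    have hPN : P₀ ≤ N := by
      rw [← hgen]
      refine sup_le (fun a ha b hb => ?_) (zpowers_le.2 fun b hb => (hmem _).2 ⟨b, hb, rfl⟩)
      have h1 : a * b * a⁻¹ * b⁻¹ = 1 := by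
        rw [hab a ha b (hBA hb)]; group
      rw [h1]
      exact one_mem _
    intro p hp b hb
    exact hPN hp b hb
  · intro x hx
    obtain ⟨b, hb, rfl⟩ := (hmem x).1 hx
    exact commutator_mem_commutator hw hb

/-- the order of the image -/
theorem card_comm [Finite P] (B : Subgroup P) (hBA : B ≤ A) :
    Nat.card ↥((B.subgroupOf A).map (th A hab w)) * Nat.card ↥(B ⊓ centralizer ({w} : Set P)) = Nat.card B := by
  have h1 := relIndex_ker (B.subgroupOf A) (th A hab w)
  rw [← h1]
  have h2 : ((th A hab w).ker ⊓ B.subgroupOf A).map A.subtype = B ⊓ centralizer ({w} : Set P) := by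
    ext x
    rw [mem_inf, mem_centralizer_singleton_iff]
    constructor
    · rintro ⟨y, ⟨hy1, hy2⟩, rfl⟩
      refine ⟨hy2, ?_⟩
      have h3 : w * (y : P) * w⁻¹ * (y : P)⁻¹ = 1 := hy1
      rw [mul_inv_eq_one, mul_inv_eq_iff_eq_mul] at h3
      exact h3.symm
    · rintro ⟨hx, hc⟩
      refine ⟨⟨x, hBA hx⟩, ⟨?_, hx⟩, rfl⟩
      show w * x * w⁻¹ * x⁻¹ = 1
      rw [← hc, mul_inv_cancel_right, mul_inv_cancel]
  have h3 : Nat.card ↥(B ⊓ centralizer ({w} : Set P)) = Nat.card ↥((th A hab w).ker ⊓ B.subgroupOf A) := by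
    rw [← h2]
    exact Nat.card_congr (Subgroup.equivMapOfInjective _ _ A.subtype_injective).symm.toEquiv
  have h4 : Nat.card ↥(B.subgroupOf A) = Nat.card B := Nat.card_congr (subgroupOfEquivOfLe hBA).toEquiv
  rw [h3, ← h4]
  have h5 := relIndex_mul_relIndex ⊥ ((th A hab w).ker ⊓ B.subgroupOf A) (B.subgroupOf A) bot_le inf_le_right
  rw [relIndex_bot_left, relIndex_bot_left, inf_relIndex_right] at h5
  rw [mul_comm]
  exact h5

end Comm

/-- **The vacuous case, for a Sylow subgroup of type `G₂`.** -/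
theorem vac {P : Type u} [Group P] [Finite P] (hP : IsPGroup 3 P) (P₀ A : Subgroup P) [hP₀ : P₀.Normal]
    (hcyc : IsCyclic (P ⧸ P₀)) (hne : P₀ ≠ ⊤) (hAP : A ≤ P₀) (hab : ∀ x ∈ A, ∀ y ∈ A, x * y = y * x)
    (hcard : Nat.card P₀ = 3 * Nat.card A) (h81 : 81 ≤ Nat.card A)
    (hfix : ∀ x ∈ P₀, x ∉ A → Nat.card ↥(A ⊓ centralizer ({x} : Set P)) ≤ 3)
    (hC : ∀ x : P, x ∉ P₀ → ∃ a ∈ A, x * a ≠ a * x) (a : ℕ)
    (hcd : ∀ φ : IrrCharacter P, charDegree (φ : P → ℂ) = 1 ∨ charDegree (φ : P → ℂ) = 3 ^ a) : False := by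
  have : Fact (Nat.Prime 3) := ⟨Nat.prime_three⟩
  have hrel : A.relIndex P₀ = 3 := by
    have h1 := relIndex_mul_relIndex ⊥ A P₀ bot_le hAP
    rw [relIndex_bot_left, relIndex_bot_left, hcard] at h1
    have h2 : Nat.card A * A.relIndex P₀ = Nat.card A * 3 := by rw [h1, mul_comm]
    exact Nat.eq_of_mul_eq_mul_left (by omega) h2
  -- `A` is normal
  have hA : A.Normal := by
    refine ⟨fun n hn g => ?_⟩
    by_contra hng
    set B := A.map (MulAut.conj g).toMonoidHom with hB
    have hnB : g * n * g⁻¹ ∈ B := ⟨n, hn, rfl⟩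
    have hBP : B ≤ P₀ := by
      rintro _ ⟨y, hy, rfl⟩
      exact hP₀.conj_mem y (hAP hy) g
    have hBab : ∀ x ∈ B, ∀ y ∈ B, x * y = y * x := by
      rintro _ ⟨x, hx, rfl⟩ _ ⟨y, hy, rfl⟩
      rw [← map_mul, hab x hx y hy, map_mul]
    have hBcard : Nat.card B = Nat.card A :=
      (Nat.card_congr (Subgroup.equivMapOfInjective A _ (MulAut.conj g).injective).toEquiv).symm
    have h1 := hfix _ (hBP hnB) hng
    have h2 : A ⊓ B ≤ A ⊓ centralizer ({g * n * g⁻¹} : Set P) := le_inf inf_le_left fun x hx => by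
      rw [mem_centralizer_singleton_iff]
      exact hBab x hx.2 _ hnB
    have h3 : Nat.card ↥(A ⊓ B) ≤ 3 := (card_le_of_le h2).trans h1
    have h4 : B.relIndex A ≤ 3 := by
      have h5 : B.relIndex A ≤ B.relIndex P₀ := relIndex_le_of_le_right hAP (by
        rw [relIndex]; exact index_ne_zero_of_finite)
      have h6 := relIndex_mul_relIndex ⊥ B P₀ bot_le hBP
      rw [relIndex_bot_left, relIndex_bot_left, hcard, hBcard] at h6
      have h7 : Nat.card A * B.relIndex P₀ = Nat.card A * 3 := by rw [h6, mul_comm]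
      have h8 := Nat.eq_of_mul_eq_mul_left (by omega) h7
      omega
    have h5 := relIndex_mul_relIndex ⊥ (A ⊓ B) A bot_le inf_le_left
    rw [relIndex_bot_left, relIndex_bot_left, inf_comm, inf_relIndex_right] at h5
    rw [inf_comm] at h3
    nlinarith
  -- `w`
  obtain ⟨w, hwP, hwA⟩ : ∃ w ∈ P₀, w ∉ A := by
    by_contra hcon
    push Not at hcon
    have h1 : A = P₀ := le_antisymm hAP hcon
    rw [h1] at hcard
    have : 0 < Nat.card P₀ := Nat.card_pos
    omega
  have hgen : A ⊔ zpowers w = P₀ := by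
    have hle : A ⊔ zpowers w ≤ P₀ := sup_le hAP (zpowers_le.2 hwP)
    have h1 := relIndex_mul_relIndex A (A ⊔ zpowers w) P₀ le_sup_left hle
    rw [hrel] at h1
    have h2 : A.relIndex (A ⊔ zpowers w) ≠ 1 := fun h =>
      hwA (relIndex_eq_one.1 h (le_sup_right (a := A) (mem_zpowers w)))
    have h3 : A.relIndex (A ⊔ zpowers w) ∣ 3 := ⟨_, h1.symm⟩
    rcases (Nat.dvd_prime Nat.prime_three).1 h3 with h | h
    · exact absurd h h2
    · rw [h] at h1
      exact le_antisymm hle (relIndex_eq_one.1 (by omega))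
  -- centralizers in nontrivial normal subgroups
  have hthree : ∀ B : Subgroup P, B.Normal → B ≤ A → B ≠ ⊥ →
      Nat.card ↥(B ⊓ centralizer ({w} : Set P)) = 3 := by
    intro B hB hBA hne'
    obtain ⟨b, hb, hb1, hb2⟩ := H777.PGrp.inf_center_ne_bot hP hne' hB
    have h1 : Nat.card ↥(B ⊓ centralizer ({w} : Set P)) ≤ 3 :=
      (card_le_of_le (inf_le_inf_right _ hBA)).trans (hfix w hwP hwA)
    have h2 : Nat.card ↥(B ⊓ centralizer ({w} : Set P)) ≠ 1 := by
      intro h
      rw [card_eq_one] at h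
      have h3 : b ∈ B ⊓ centralizer ({w} : Set P) := mem_inf.2 ⟨hb, by
        rw [mem_centralizer_singleton_iff]
        exact (hb2 w).symm⟩
      rw [h, mem_bot] at h3
      exact hb1 h3
    have h3 : IsPGroup 3 ↥(B ⊓ centralizer ({w} : Set P)) := hP.to_subgroup _
    obtain ⟨k, hk⟩ := IsPGroup.iff_card.1 h3
    rw [hk] at h1 h2 ⊢
    rcases k with _ | _ | k
    · exact absurd (pow_zero 3) h2
    · norm_num
    · exfalso
      have : 3 ^ 2 ≤ 3 ^ (k + 1 + 1) := Nat.pow_le_pow_right (by norm_num) (by omega)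
      omega
  have hAne : A ≠ ⊥ := by
    rintro rfl
    rw [Subgroup.card_bot] at h81
    omega
  have c1 := hthree A hA le_rfl hAne
  have e1 := comm_eq A hab w A P₀ le_rfl hAP hwP hgen
  have d1 := card_comm A hab w A le_rfl
  rw [← e1, c1] at d1
  set K₁ := ⁅P₀, A⁆ with hK₁
  have hK₁n : K₁.Normal := commutator_normal P₀ A
  have hK₁A : K₁ ≤ A := commutator_le_right P₀ A
  have hK₁ne : K₁ ≠ ⊥ := by
    intro h
    rw [h, Subgroup.card_bot] at d1
    omega
  have c2 := hthree K₁ hK₁n hK₁A hK₁ne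
  have e2 := comm_eq A hab w K₁ P₀ hK₁A hAP hwP hgen
  have d2 := card_comm A hab w K₁ hK₁A
  rw [← e2, c2] at d2
  set K₂ := ⁅P₀, K₁⁆ with hK₂
  have hK₂n : K₂.Normal := commutator_normal P₀ K₁
  have hK₂K : K₂ ≤ K₁ := commutator_le_right P₀ K₁
  have hK9 : K₂.relIndex A = 9 := by
    have h1 := relIndex_mul_relIndex ⊥ K₂ A bot_le (hK₂K.trans hK₁A)
    rw [relIndex_bot_left, relIndex_bot_left] at h1
    have h2 : Nat.card K₂ * K₂.relIndex A = Nat.card K₂ * 9 := by
      rw [h1, ← d1, ← d2]; ring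
    exact Nat.eq_of_mul_eq_mul_left Nat.card_pos h2
  have hne2 : ¬ K₁ ≤ K₂ := by
    intro h
    have h1 : Nat.card K₁ ≤ Nat.card K₂ := card_le_of_le h
    have h2 : 0 < Nat.card K₂ := Nat.card_pos
    omega
  have hker : (QuotientGroup.mk' P₀).ker = P₀ := QuotientGroup.ker_mk' P₀
  refine not_cd hP (QuotientGroup.mk' P₀) ?_ A (by rw [hker]; exact hAP) (by rw [hker]; exact hrel) hab ?_ K₂
    (hK₂K.trans hK₁A) hK9 ?_ ⟨w, by rw [hker]; exact hwP, ?_⟩ a hcd
  · obtain ⟨y, hy⟩ : ∃ y : P, y ∉ P₀ := by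
      by_contra hcon
      push Not at hcon
      exact hne (eq_top_iff.2 fun y _ => hcon y)
    exact ⟨y, fun h => hy ((QuotientGroup.eq_one_iff y).1 h)⟩
  · intro y hy
    by_contra hyA
    by_cases hyP : y ∈ P₀
    · have h1 := hfix y hyP hyA
      have h2 : A ⊓ centralizer ({y} : Set P) = A := inf_eq_left.2 fun x hx => by
        rw [mem_centralizer_singleton_iff]
        exact (hy x hx).symm
      rw [h2] at h1
      omega
    · obtain ⟨x, hx, hx2⟩ := hC y hyP
      exact hx2 (hy x hx)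
  · by_contra hcon
    push Not at hcon
    apply hne2
    rw [hK₁, commutator_le]
    intro p hp x hx
    exact hcon p (by rw [hker]; exact hp) x hx
  · have h1 := relIndex_mul_relIndex ⊥ (A ⊓ centralizer ({w} : Set P)) A bot_le inf_le_left
    rw [relIndex_bot_left, relIndex_bot_left, c1, inf_comm, inf_relIndex_right] at h1
    omega

theorem vac_cd {P : Type u} [Group P] [Finite P] (hP : IsPGroup 3 P) (P₀ A : Subgroup P) [hP₀ : P₀.Normal]
    (hcyc : IsCyclic (P ⧸ P₀)) (hne : P₀ ≠ ⊤) (hAP : A ≤ P₀) (hab : ∀ x ∈ A, ∀ y ∈ A, x * y = y * x)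
    (hcard : Nat.card P₀ = 3 * Nat.card A) (h81 : 81 ≤ Nat.card A)
    (hfix : ∀ x ∈ P₀, x ∉ A → Nat.card ↥(A ⊓ centralizer ({x} : Set P)) ≤ 3)
    (hC : ∀ x : P, x ∉ P₀ → ∃ a ∈ A, x * a ≠ a * x) (a : ℕ) : ¬ CD 3 a P := fun h =>
  vac hP P₀ A hcyc hne hAP hab hcard h81 hfix hC a h.1

end Cfsg.Agent.H22.HT
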